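import Mathlib

/-!
Helper library (helper19): finite `p`-groups of linear maps in characteristic `p`.
`charp_case`: if `(p : F) = 0`, `P` is a finite `p`-group acting linearly on a finite-dimensional
`F`-space `V` and `finrank V ≤ 2 ^ k`, then the `k`-th derived subgroup of `P` acts trivially.
-/

set_option autoImplicit false

namespace Cfsg.Agent.Helper19.LinP

universe u v w

open scoped commutatorElement

theorem fixed_aux {p : ℕ} [Fact p.Prime] {P : Type u} [Group P] [Finite P] (hP : IsPGroup p P) {W : Type v}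
    [AddCommGroup W] [Module (ZMod p) W] (τ : P →* AddMonoid.End W) (w0 : W) (hw0 : w0 ≠ 0) :
    ∃ w : W, w ≠ 0 ∧ ∀ g : P, τ g w = w := by
  classical
  have hpW : ∀ w : W, p • w = 0 := by
    intro w; rw [← Nat.cast_smul_eq_nsmul (ZMod p), ZMod.natCast_self, zero_smul]
  have rmul : ∀ a b : P, ∀ v : W, τ (a * b) v = τ a (τ b v) := by
    intro a b v; rw [map_mul]; rfl
  have rone : ∀ v : W, τ 1 v = v := by
    intro v; rw [map_one]; rfl
  obtain ⟨M, hM⟩ : ∃ M : Submodule (ZMod p) W,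
      M = Submodule.span (ZMod p) (Set.range (fun g : P => τ g w0)) := ⟨_, rfl⟩
  haveI : Module.Finite (ZMod p) ↥M := by
    rw [hM]; exact Module.Finite.span_of_finite (ZMod p) (Set.finite_range _)
  haveI : Finite ↥M := Module.finite_of_finite (ZMod p)
  have hinv : ∀ g : P, ∀ m ∈ M, τ g m ∈ M := by
    intro g m hm
    rw [hM] at hm ⊢
    induction hm using Submodule.span_induction with
    | mem x hx =>
      obtain ⟨h, rfl⟩ := hx
      apply Submodule.subset_span
      exact ⟨g * h, rmul g h w0⟩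
    | zero => rw [map_zero]; exact Submodule.zero_mem _
    | add x y _ _ hx hy => rw [map_add]; exact Submodule.add_mem _ hx hy
    | smul c x _ hx => rw [ZMod.map_smul (τ g) c x]; exact Submodule.smul_mem _ c hx
  letI : MulAction P ↥M :=
    { smul := fun g m => ⟨τ g m.1, hinv g m.1 m.2⟩
      one_smul := by
        intro m; apply Subtype.ext
        exact rone m.1
      mul_smul := by
        intro g h m; apply Subtype.ext
        exact rmul g h m.1 }
  have hw0M : w0 ∈ M := by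
    rw [hM]; apply Submodule.subset_span
    exact ⟨1, rone w0⟩
  have hdvd : p ∣ Nat.card ↥M := by
    have h2 : addOrderOf (⟨w0, hw0M⟩ : ↥M) = p := by
      apply addOrderOf_eq_prime
      · apply Subtype.ext
        exact hpW w0
      · intro h; exact hw0 (congrArg Subtype.val h)
    have h3 := addOrderOf_dvd_natCard (⟨w0, hw0M⟩ : ↥M)
    rw [h2] at h3; exact h3
  have h0 : (0 : ↥M) ∈ MulAction.fixedPoints P ↥M := by
    intro g; apply Subtype.ext
    show τ g (0 : W) = 0
    rw [map_zero]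
  obtain ⟨b, hb, hb0⟩ := hP.exists_fixed_point_of_prime_dvd_card_of_fixed_point ↥M hdvd h0
  refine ⟨b.1, fun h => hb0 (Subtype.ext h.symm), fun g => ?_⟩
  exact congrArg Subtype.val (hb g)

section charp

variable {F : Type w} [Field F] {p : ℕ} [Fact p.Prime] {P : Type u} [Group P]

theorem rmul {V : Type v} [AddCommGroup V] [Module F V] (ρ : P →* (V →ₗ[F] V)) (a b : P) (v : V) :
    ρ (a * b) v = ρ a (ρ b v) := by
  rw [map_mul]; rfl

theorem rone {V : Type v} [AddCommGroup V] [Module F V] (ρ : P →* (V →ₗ[F] V)) (v : V) :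
    ρ 1 v = v := by
  rw [map_one]; rfl

theorem exists_fixed [Finite P] (hP : IsPGroup p P) (hp0 : (p : F) = 0) {W : Type v}
    [AddCommGroup W] [Module F W] [Nontrivial W] (τ : P →* (W →ₗ[F] W)) :
    ∃ w : W, w ≠ 0 ∧ ∀ g : P, τ g w = w := by
  have hpW : ∀ w : W, p • w = 0 := by
    intro w; rw [← Nat.cast_smul_eq_nsmul F, hp0, zero_smul]
  obtain ⟨w0, hw0⟩ := exists_ne (0 : W)
  obtain ⟨τ', hτ'⟩ : ∃ τ' : P →* AddMonoid.End W, ∀ g w, τ' g w = τ g w := by
    refine ⟨{ toFun := fun g => (τ g).toAddMonoidHom, map_one' := ?_, map_mul' := ?_ }, fun g w => rfl⟩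
    · ext w; show τ 1 w = w; rw [map_one]; rfl
    · intro a b; ext w; show τ (a * b) w = τ a (τ b w); rw [map_mul]; rfl
  obtain ⟨w, hw, h⟩ := @fixed_aux p _ P _ _ hP W _ (AddCommGroup.zmodModule hpW) τ' w0 hw0
  exact ⟨w, hw, fun g => by rw [← hτ']; exact h g⟩

variable {V : Type v} [AddCommGroup V] [Module F V]

/-- The next term of the fixed-point chain. -/
def phi (ρ : P →* (V →ₗ[F] V)) (U : Submodule F V) : Submodule F V where
  carrier := {v | ∀ g : P, ρ g v - v ∈ U}
  add_mem' := by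
    intro a b ha hb g
    have h1 : ρ g (a + b) - (a + b) = (ρ g a - a) + (ρ g b - b) := by rw [map_add]; abel
    rw [h1]; exact U.add_mem (ha g) (hb g)
  zero_mem' := by
    intro g
    rw [map_zero, sub_zero]; exact U.zero_mem
  smul_mem' := by
    intro c a ha g
    have h1 : ρ g (c • a) - c • a = c • (ρ g a - a) := by rw [map_smul, smul_sub]
    rw [h1]; exact U.smul_mem c (ha g)

/-- The fixed-point chain. -/
def chain (ρ : P →* (V →ₗ[F] V)) : ℕ → Submodule F V
  | 0 => ⊥
  | (i + 1) => phi ρ (chain ρ i)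

theorem mem_chain_succ (ρ : P →* (V →ₗ[F] V)) (i : ℕ) (v : V) :
    v ∈ chain ρ (i + 1) ↔ ∀ g : P, ρ g v - v ∈ chain ρ i := Iff.rfl

theorem chain_zero (ρ : P →* (V →ₗ[F] V)) : chain ρ 0 = ⊥ := rfl

theorem chain_inv (ρ : P →* (V →ₗ[F] V)) (i : ℕ) :
    ∀ g : P, ∀ v ∈ chain ρ i, ρ g v ∈ chain ρ i := by
  induction i with
  | zero =>
    intro g v hv
    rw [chain_zero, Submodule.mem_bot] at hv
    rw [hv, map_zero]; exact Submodule.zero_mem _
  | succ i ih =>
    intro g v hv
    rw [mem_chain_succ] at hv ⊢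
    intro h
    have e : g * (g⁻¹ * h * g) = h * g := by group
    have h1 : ρ h (ρ g v) - ρ g v = ρ g (ρ (g⁻¹ * h * g) v - v) := by
      rw [map_sub, ← rmul ρ g, e, rmul ρ h]
    rw [h1]
    exact ih g _ (hv (g⁻¹ * h * g))

theorem chain_le_succ (ρ : P →* (V →ₗ[F] V)) (i : ℕ) : chain ρ i ≤ chain ρ (i + 1) := by
  intro v hv
  rw [mem_chain_succ]
  intro g
  exact Submodule.sub_mem _ (chain_inv ρ i g v hv) hv

theorem chain_lt [Finite P] (hP : IsPGroup p P) (hp0 : (p : F) = 0) (ρ : P →* (V →ₗ[F] V))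
    (i : ℕ) (h : chain ρ i ≠ ⊤) : chain ρ i < chain ρ (i + 1) := by
  refine lt_of_le_of_ne (chain_le_succ ρ i) ?_
  intro heq
  obtain ⟨U, hU⟩ : ∃ U, U = chain ρ i := ⟨_, rfl⟩
  have hinv : ∀ g : P, U ≤ U.comap (ρ g) := by
    intro g v hv
    rw [Submodule.mem_comap]
    rw [hU] at hv ⊢
    exact chain_inv ρ i g v hv
  haveI : Nontrivial (V ⧸ U) := Submodule.Quotient.nontrivial_iff.mpr (by rw [hU]; exact h)
  obtain ⟨τ, hτ⟩ : ∃ τ : P →* ((V ⧸ U) →ₗ[F] (V ⧸ U)),
      ∀ g v, τ g (Submodule.Quotient.mk v) = Submodule.Quotient.mk (ρ g v) := by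
    refine ⟨{ toFun := fun g => U.mapQ U (ρ g) (hinv g), map_one' := ?_, map_mul' := ?_ },
      fun g v => rfl⟩
    · apply LinearMap.ext
      intro x
      obtain ⟨v, rfl⟩ := Submodule.Quotient.mk_surjective U x
      show Submodule.Quotient.mk (ρ 1 v) = Submodule.Quotient.mk v
      rw [rone]
    · intro a b
      apply LinearMap.ext
      intro x
      obtain ⟨v, rfl⟩ := Submodule.Quotient.mk_surjective U x
      show Submodule.Quotient.mk (ρ (a * b) v) = Submodule.Quotient.mk (ρ a (ρ b v))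
      rw [rmul]
  obtain ⟨w, hw0, hw⟩ := exists_fixed hP hp0 τ
  obtain ⟨v, rfl⟩ := Submodule.Quotient.mk_surjective U w
  have hvU : v ∉ U := fun hv => hw0 ((Submodule.Quotient.mk_eq_zero U).mpr hv)
  have hv1 : v ∈ chain ρ (i + 1) := by
    rw [mem_chain_succ]
    intro g
    have h2 := hw g
    rw [hτ, Submodule.Quotient.eq] at h2
    rw [← hU]; exact h2
  rw [← heq, ← hU] at hv1
  exact hvU hv1

theorem chain_top [Finite P] (hP : IsPGroup p P) (hp0 : (p : F) = 0) [FiniteDimensional F V]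
    (ρ : P →* (V →ₗ[F] V)) (j : ℕ) (hj : Module.finrank F V ≤ j) : chain ρ j = ⊤ := by
  have key : ∀ i : ℕ, chain ρ i = ⊤ ∨ i ≤ Module.finrank F ↥(chain ρ i) := by
    intro i
    induction i with
    | zero => right; exact Nat.zero_le _
    | succ i ih =>
      by_cases h : chain ρ i = ⊤
      · left
        have h1 := chain_le_succ ρ i
        rw [h] at h1
        exact top_le_iff.mp h1
      · right
        rcases ih with h' | h'
        · exact absurd h' h
        · have h2 := Submodule.finrank_lt_finrank_of_lt (chain_lt hP hp0 ρ i h)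
          omega
  rcases key j with h | h
  · exact h
  · apply Submodule.eq_top_of_finrank_eq
    have h2 := Submodule.finrank_le (chain ρ j)
    omega

/-- Elements moving the chain down by `j` steps. -/
def depth (ρ : P →* (V →ₗ[F] V)) (j : ℕ) : Subgroup P where
  carrier := {x | ∀ i : ℕ, ∀ v ∈ chain ρ (i + j), ρ x v - v ∈ chain ρ i}
  one_mem' := by
    intro i v _
    rw [rone, sub_self]; exact Submodule.zero_mem _
  mul_mem' := by
    intro x y hx hy i v hv
    have h1 : ρ (x * y) v - v = ρ x (ρ y v - v) + (ρ x v - v) := by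
      rw [rmul, map_sub]; abel
    rw [h1]
    exact Submodule.add_mem _ (chain_inv ρ i x _ (hy i v hv)) (hx i v hv)
  inv_mem' := by
    intro x hx i v hv
    have h1 : ρ x⁻¹ v - v = - ρ x⁻¹ (ρ x v - v) := by
      rw [map_sub, ← rmul, inv_mul_cancel, rone]; abel
    rw [h1]
    exact Submodule.neg_mem _ (chain_inv ρ i x⁻¹ _ (hx i v hv))

theorem mem_depth (ρ : P →* (V →ₗ[F] V)) (j : ℕ) (x : P) :
    x ∈ depth ρ j ↔ ∀ i : ℕ, ∀ v ∈ chain ρ (i + j), ρ x v - v ∈ chain ρ i := Iff.rfl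

theorem depth_comm (ρ : P →* (V →ₗ[F] V)) (j : ℕ) {x y : P} (hx : x ∈ depth ρ j)
    (hy : y ∈ depth ρ j) : ⁅x, y⁆ ∈ depth ρ (j + j) := by
  rw [mem_depth] at hx hy ⊢
  intro i v hv
  obtain ⟨w, hw⟩ : ∃ w, w = ρ (x⁻¹ * y⁻¹) v := ⟨_, rfl⟩
  have hwmem : w ∈ chain ρ (i + (j + j)) := by rw [hw]; exact chain_inv ρ _ _ v hv
  have e1 : ρ ⁅x, y⁆ v = ρ x (ρ y w) := by
    rw [hw, ← rmul, ← rmul, commutatorElement_def]
    have e : x * y * x⁻¹ * y⁻¹ = x * y * (x⁻¹ * y⁻¹) := by group
    rw [e]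
  have e2 : v = ρ y (ρ x w) := by
    rw [hw, ← rmul, ← rmul]
    have e : y * x * (x⁻¹ * y⁻¹) = 1 := by group
    rw [e, rone]
  have e3 : ρ ⁅x, y⁆ v - v = ρ x (ρ y w) - ρ y (ρ x w) := by
    rw [e1]; exact congrArg (fun t => ρ x (ρ y w) - t) e2
  have e4 : ρ x (ρ y w) - ρ y (ρ x w)
      = (ρ x (ρ y w - w) - (ρ y w - w)) - (ρ y (ρ x w - w) - (ρ x w - w)) := by
    simp only [map_sub]; abel
  rw [e3, e4]
  have hy1 : ρ y w - w ∈ chain ρ (i + j) := hy (i + j) w (by rw [add_assoc]; exact hwmem)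
  have hx1 : ρ x w - w ∈ chain ρ (i + j) := hx (i + j) w (by rw [add_assoc]; exact hwmem)
  exact Submodule.sub_mem _ (hx i _ hy1) (hy i _ hx1)

theorem derived_le_depth (ρ : P →* (V →ₗ[F] V)) (k : ℕ) :
    derivedSeries P k ≤ depth ρ (2 ^ k) := by
  induction k with
  | zero =>
    intro x _
    rw [mem_depth]
    intro i v hv
    rw [pow_zero, mem_chain_succ] at hv
    exact hv x
  | succ k ih =>
    rw [derivedSeries_succ, Subgroup.commutator_le]
    intro a ha b hb
    have h1 := depth_comm ρ (2 ^ k) (ih ha) (ih hb)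
    rwa [pow_succ, mul_two]

/-- In characteristic `p`, the `k`-th derived subgroup of a finite `p`-group acts trivially on a
space of dimension at most `2 ^ k`. -/
theorem charp_case [Finite P] (hP : IsPGroup p P) (hp0 : (p : F) = 0) [FiniteDimensional F V]
    (ρ : P →* (V →ₗ[F] V)) (k : ℕ) (hk : Module.finrank F V ≤ 2 ^ k) (x : P)
    (hx : x ∈ derivedSeries P k) : ρ x = 1 := by
  have h1 := (mem_depth ρ _ x).mp (derived_le_depth ρ k hx)
  apply LinearMap.ext
  intro v
  have h2 := h1 0 v (by rw [zero_add, chain_top hP hp0 ρ _ hk]; exact Submodule.mem_top)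
  rw [chain_zero, Submodule.mem_bot, sub_eq_zero] at h2
  rw [h2]; rfl

end charp

end Cfsg.Agent.Helper19.LinP
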