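import Mathlib

set_option autoImplicit false

namespace Cfsg.Agent.Helper19.Maz

universe u

theorem pow_norm {X : Type*} [Group X] (R : Subgroup X) (h : X)
    (hR : ∀ c ∈ R, h * c * h⁻¹ ∈ R) : ∀ i : ℕ, ∀ c ∈ R, h ^ i * c * (h ^ i)⁻¹ ∈ R := by
  intro i
  induction i with
  | zero =>
    intro c hc
    simpa using hc
  | succ i ih =>
    intro c hc
    have h1 := hR _ (ih c hc)
    have e : h ^ (i + 1) * c * (h ^ (i + 1))⁻¹ = h * (h ^ i * c * (h ^ i)⁻¹) * h⁻¹ := by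
      rw [pow_succ']; group
    rw [e]; exact h1

theorem tau_mem {X : Type*} [Group X] (R : Subgroup X) (h : X)
    (hR : ∀ c ∈ R, h * c * h⁻¹ ∈ R) (i : ℕ) (c : X) (hc : c ∈ R) :
    c * h ^ i * c⁻¹ * (h ^ i)⁻¹ ∈ R := by
  have h1 := pow_norm R h hR i _ (R.inv_mem hc)
  have e : c * h ^ i * c⁻¹ * (h ^ i)⁻¹ = c * (h ^ i * c⁻¹ * (h ^ i)⁻¹) := by group
  rw [e]; exact R.mul_mem hc h1

theorem lemM_abs {X U : Type*} [Group X] [CommGroup U] [Finite U] (φ : X →* MulAut U)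
    (R : Subgroup X) [Finite R] (h : X) (m : ℕ)
    (hR : ∀ c ∈ R, h * c * h⁻¹ ∈ R)
    (hfpf : ∀ i, 0 < i → i < m + 1 → ∀ c ∈ R, c * h ^ i * c⁻¹ * (h ^ i)⁻¹ = 1 → c = 1)
    (hn : h ^ (m + 1) = 1)
    (hnu : ∀ c ∈ R, ∀ u : U,
      ∏ i ∈ Finset.range (m + 1), φ (c * h ^ (i + 1) * c⁻¹) u = 1)
    (hcop : (Nat.card R).Coprime (Nat.card U)) :
    ∀ k ∈ R, ∀ u : U, φ k u = u := by
  classical
  haveI : Fintype ↥R := Fintype.ofFinite _
  have hTfix : ∀ k' ∈ R, ∀ u : U, φ k' (∏ k : ↥R, φ (k : X) u) = ∏ k : ↥R, φ (k : X) u := by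
    intro k' hk' u
    rw [map_prod]
    exact Fintype.prod_bijective (fun k : ↥R => (⟨k', hk'⟩ : ↥R) * k)
      (Group.mulLeft_bijective _) _ _
      (fun k => by rw [Subgroup.coe_mul, map_mul, MulAut.mul_apply])
  have hre : ∀ i, 0 < i → i < m + 1 → ∀ u : U,
      ∏ c : ↥R, φ ((c : X) * h ^ i * (c : X)⁻¹) u = ∏ k : ↥R, φ (k : X) (φ (h ^ i) u) := by
    intro i hi0 hi u
    have hinj : Function.Injective
        (fun c : ↥R => (⟨_, tau_mem R h hR i (c : X) c.2⟩ : ↥R)) := by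
      intro c c' e
      have e' : (c : X) * h ^ i * (c : X)⁻¹ * (h ^ i)⁻¹
          = (c' : X) * h ^ i * (c' : X)⁻¹ * (h ^ i)⁻¹ := congrArg Subtype.val e
      have e3 : (c : X) * h ^ i * (c : X)⁻¹ = (c' : X) * h ^ i * (c' : X)⁻¹ :=
        mul_right_cancel e'
      have e2 : ((c' : X)⁻¹ * c) * h ^ i * ((c' : X)⁻¹ * c)⁻¹ * (h ^ i)⁻¹ = 1 := by
        calc ((c' : X)⁻¹ * c) * h ^ i * ((c' : X)⁻¹ * c)⁻¹ * (h ^ i)⁻¹
            = (c' : X)⁻¹ * ((c : X) * h ^ i * (c : X)⁻¹) * c' * (h ^ i)⁻¹ := by group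
          _ = (c' : X)⁻¹ * ((c' : X) * h ^ i * (c' : X)⁻¹) * c' * (h ^ i)⁻¹ := by rw [e3]
          _ = 1 := by group
      have h1 := hfpf i hi0 hi _ (R.mul_mem (R.inv_mem c'.2) c.2) e2
      exact Subtype.ext (inv_mul_eq_one.mp h1).symm
    refine Fintype.prod_bijective _ (Finite.injective_iff_bijective.mp hinj) _ _ ?_
    intro c
    show φ ((c : X) * h ^ i * (c : X)⁻¹) u
      = φ ((c : X) * h ^ i * (c : X)⁻¹ * (h ^ i)⁻¹) (φ (h ^ i) u)
    rw [← MulAut.mul_apply, ← map_mul, inv_mul_cancel_right]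
  intro k hk u
  -- product over c of the norm relation
  have h1 : ∏ c : ↥R, ∏ i ∈ Finset.range (m + 1), φ ((c : X) * h ^ (i + 1) * (c : X)⁻¹) u = 1 :=
    Finset.prod_eq_one (fun c _ => hnu (c : X) c.2 u)
  rw [Finset.prod_comm, Finset.prod_range_succ] at h1
  have hlast : ∏ c : ↥R, φ ((c : X) * h ^ (m + 1) * (c : X)⁻¹) u = u ^ Fintype.card ↥R := by
    simp only [hn, mul_one, mul_inv_cancel, map_one, MulAut.one_apply, Finset.prod_const,
      Finset.card_univ]
  have h0 := hnu 1 R.one_mem u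
  rw [Finset.prod_range_succ] at h0
  simp only [one_mul, inv_one, mul_one, hn, map_one, MulAut.one_apply] at h0
  have h0' : ∏ i ∈ Finset.range m, φ (h ^ (i + 1)) u = u⁻¹ := eq_inv_of_mul_eq_one_left h0
  have hfirst : ∏ i ∈ Finset.range m, ∏ c : ↥R, φ ((c : X) * h ^ (i + 1) * (c : X)⁻¹) u
      = (∏ k : ↥R, φ (k : X) u)⁻¹ := by
    have e1 : ∏ i ∈ Finset.range m, ∏ c : ↥R, φ ((c : X) * h ^ (i + 1) * (c : X)⁻¹) u
        = ∏ i ∈ Finset.range m, ∏ k : ↥R, φ (k : X) (φ (h ^ (i + 1)) u) := by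
      apply Finset.prod_congr rfl
      intro i hi
      exact hre (i + 1) (Nat.succ_pos i) (by have := Finset.mem_range.mp hi; omega) u
    rw [e1, Finset.prod_comm]
    rw [← Finset.prod_inv_distrib]
    apply Finset.prod_congr rfl
    intro c _
    rw [← map_prod, h0', map_inv]
  rw [hfirst, hlast] at h1
  have hT : ∏ k : ↥R, φ (k : X) u = u ^ Fintype.card ↥R := by
    rw [inv_mul_eq_one] at h1
    exact h1
  have h2 := hTfix k hk u
  rw [hT, map_pow] at h2
  have h3 : (φ k u * u⁻¹) ^ Fintype.card ↥R = 1 := by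
    rw [mul_pow, inv_pow, h2, mul_inv_cancel]
  have h4 : orderOf (φ k u * u⁻¹) ∣ Nat.card ↥R := by
    rw [Nat.card_eq_fintype_card]
    exact orderOf_dvd_of_pow_eq_one h3
  have h5 : orderOf (φ k u * u⁻¹) ∣ Nat.card U := orderOf_dvd_natCard _
  have h6 : orderOf (φ k u * u⁻¹) = 1 := Nat.eq_one_of_dvd_coprimes hcop h4 h5
  rw [orderOf_eq_one_iff] at h6
  exact mul_inv_eq_one.mp h6

theorem lemM {X : Type*} [Group X] [Finite X] (U : Subgroup X) [hUn : U.Normal]
    (hU : ∀ a ∈ U, ∀ b ∈ U, a * b = b * a) (R : Subgroup X) (h : X) (m : ℕ)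
    (hR : ∀ c ∈ R, h * c * h⁻¹ ∈ R)
    (hfpf : ∀ i, 0 < i → i < m + 1 → ∀ c ∈ R, c * h ^ i * c⁻¹ * (h ^ i)⁻¹ = 1 → c = 1)
    (hpow : ∀ c ∈ R, ∀ u ∈ U, (c * h * c⁻¹ * u) ^ (m + 1) = 1)
    (hcop : (Nat.card R).Coprime (Nat.card U)) :
    ∀ k ∈ R, ∀ u ∈ U, k * u * k⁻¹ = u := by
  letI cg : CommGroup ↥U :=
    { (inferInstance : Group ↥U) with
      mul_comm := fun a b => Subtype.ext (hU a a.2 b b.2) }
  have hn : h ^ (m + 1) = 1 := by
    have := hpow 1 R.one_mem 1 U.one_mem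
    simpa using this
  have cmul : ∀ a b : ↥U, ((a * b : ↥U) : X) = (a : X) * (b : X) := fun a b => rfl
  have cone : ((1 : ↥U) : X) = 1 := rfl
  have key : ∀ (g : X) (u : ↥U) (j : ℕ), (g * (u : X)) ^ j
      = ((∏ i ∈ Finset.range j, (MulAut.conjNormal (g ^ (i + 1)) : MulAut ↥U) u : ↥U) : X)
        * g ^ j := by
    intro g u j
    induction j with
    | zero =>
      rw [pow_zero, pow_zero, Finset.prod_range_zero, cone, mul_one]
    | succ j ih =>
      rw [pow_succ, ih, Finset.prod_range_succ, cmul, MulAut.conjNormal_apply]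
      group
  have hnu : ∀ c ∈ R, ∀ u : ↥U, ∏ i ∈ Finset.range (m + 1),
      (MulAut.conjNormal (c * h ^ (i + 1) * c⁻¹) : MulAut ↥U) u = 1 := by
    intro c hc u
    have h1 := key (c * h * c⁻¹) u (m + 1)
    rw [hpow c hc u u.2, conj_pow, hn, mul_one, mul_inv_cancel, mul_one] at h1
    apply Subtype.ext
    rw [cone, h1]
    congr 1
    apply Finset.prod_congr rfl
    intro i _
    rw [conj_pow]
  have hmain := lemM_abs (MulAut.conjNormal : X →* MulAut ↥U) R h m hR hfpf hn hnu hcop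
  intro k hk u hu
  have h2 := hmain k hk ⟨u, hu⟩
  have h3 := congrArg Subtype.val h2
  rwa [MulAut.conjNormal_apply] at h3

theorem eq_one_of_pr {X : Type*} [Group X] {p r : ℕ} (hp : p.Prime) (hr : r.Prime) (hpr : p ≠ r)
    (w : X) (a b : ℕ) (h1 : w ^ p ^ a = 1) (h2 : w ^ r ^ b = 1) : w = 1 := by
  have d1 := orderOf_dvd_of_pow_eq_one h1
  have d2 := orderOf_dvd_of_pow_eq_one h2
  have hc : Nat.Coprime (p ^ a) (r ^ b) :=
    Nat.Coprime.pow a b ((Nat.coprime_primes hp hr).mpr hpr)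
  have h3 : orderOf w = 1 := Nat.eq_one_of_dvd_coprimes hc d1 d2
  exact orderOf_eq_one_iff.mp h3

theorem lemC (p r : ℕ) [hp : Fact p.Prime] [hr : Fact r.Prime] (hpr : p ≠ r) :
    ∀ (N : ℕ) (X : Type u) [Group X] [Finite X] (P R : Subgroup X) (_ : P.Normal) (h : X) (m : ℕ),
      Nat.card P ≤ N → (∀ u ∈ P, ∃ a : ℕ, u ^ p ^ a = 1) → (∀ c ∈ R, ∃ a : ℕ, c ^ r ^ a = 1) →
      (∀ c ∈ R, h * c * h⁻¹ ∈ R) →
      (∀ i, 0 < i → i < m + 1 → ∀ c ∈ R, c * h ^ i * c⁻¹ * (h ^ i)⁻¹ = 1 → c = 1) →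
      (∀ c ∈ R, ∀ u ∈ P, (c * h * c⁻¹ * u) ^ (m + 1) = 1) →
      ∀ k ∈ R, ∀ u ∈ P, k * u * k⁻¹ = u := by
  intro N
  induction N with
  | zero =>
    intro X _ _ P R _ h m hcard
    have := Nat.card_pos (α := ↥P)
    omega
  | succ N ih =>
    intro X _ _ P R hPn h m hcard hPp hRr hR hfpf hpow
    haveI := hPn
    have hRG : IsPGroup r ↥R := fun g => by
      obtain ⟨a, ha⟩ := hRr g g.2
      exact ⟨a, Subtype.ext (by rw [Subgroup.coe_pow, ha, Subgroup.coe_one])⟩
    have hsubP : ∀ Z : Subgroup X, Z ≤ P → IsPGroup p ↥Z := fun Z hZ g => by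
      obtain ⟨a, ha⟩ := hPp g (hZ g.2)
      exact ⟨a, Subtype.ext (by rw [Subgroup.coe_pow, ha, Subgroup.coe_one])⟩
    have hcopRP : ∀ Z : Subgroup X, Z ≤ P → (Nat.card ↥R).Coprime (Nat.card ↥Z) := by
      intro Z hZ
      obtain ⟨b, hb⟩ := IsPGroup.iff_card.mp hRG
      obtain ⟨a, ha⟩ := IsPGroup.iff_card.mp (hsubP Z hZ)
      rw [hb, ha]
      exact Nat.Coprime.pow b a ((Nat.coprime_primes hr.out hp.out).mpr hpr.symm)
    by_cases hab : ∀ a ∈ P, ∀ b ∈ P, a * b = b * a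
    · exact lemM P hab R h m hR hfpf hpow (hcopRP P le_rfl)
    · set Z : Subgroup X := P ⊓ Subgroup.centralizer (P : Set X) with hZdef
      have hZP : Z ≤ P := inf_le_left
      have hZc : ∀ z ∈ Z, ∀ y ∈ P, y * z = z * y := by
        intro z hz y hy
        have h2 : z ∈ Subgroup.centralizer (P : Set X) := hz.2
        rw [Subgroup.mem_centralizer_iff] at h2
        exact h2 y hy
      haveI hZn : Z.Normal := by
        refine ⟨fun z hz g => ⟨hPn.conj_mem z hz.1 g, ?_⟩⟩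
        show g * z * g⁻¹ ∈ Subgroup.centralizer (P : Set X)
        rw [Subgroup.mem_centralizer_iff]
        intro y hy
        have hy' : g⁻¹ * y * g ∈ P := by
          have := hPn.conj_mem y hy g⁻¹
          rwa [inv_inv] at this
        have e := hZc z hz _ hy'
        calc y * (g * z * g⁻¹) = g * ((g⁻¹ * y * g) * z) * g⁻¹ := by group
          _ = g * (z * (g⁻¹ * y * g)) * g⁻¹ := by rw [e]
          _ = g * z * g⁻¹ * y := by group
      have hZab : ∀ a ∈ Z, ∀ b ∈ Z, a * b = b * a := fun a ha b hb => hZc b hb a ha.1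
      have hZne : ∃ z ∈ Z, z ≠ 1 := by
        haveI : Nontrivial ↥P := by
          by_contra hnt
          rw [not_nontrivial_iff_subsingleton] at hnt
          apply hab
          intro a ha b hb
          have e1 : (⟨a, ha⟩ : ↥P) = ⟨b, hb⟩ := Subsingleton.elim _ _
          have e2 : a = b := congrArg Subtype.val e1
          rw [e2]
        haveI := (hsubP P le_rfl).center_nontrivial
        obtain ⟨z, hz⟩ := exists_ne (1 : ↥(Subgroup.center ↥P))
        refine ⟨((z : ↥P) : X), ⟨(z : ↥P).2, ?_⟩, ?_⟩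
        · show ((z : ↥P) : X) ∈ Subgroup.centralizer (P : Set X)
          rw [Subgroup.mem_centralizer_iff]
          intro y hy
          have h3 := Subgroup.mem_center_iff.mp z.2 ⟨y, hy⟩
          exact congrArg Subtype.val h3
        · intro e
          exact hz (Subtype.ext (Subtype.ext e))
      have hRZ : ∀ k ∈ R, ∀ u ∈ Z, k * u * k⁻¹ = u :=
        lemM Z hZab R h m hR hfpf (fun c hc u hu => hpow c hc u (hZP hu)) (hcopRP Z hZP)
      let π : X →* X ⧸ Z := QuotientGroup.mk' Z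
      have hπ1 : ∀ x : X, π x = 1 ↔ x ∈ Z := fun x => QuotientGroup.eq_one_iff x
      have hcardq : Nat.card ↥(P.map π) ≤ N := by
        classical
        haveI : Fintype ↥P := Fintype.ofFinite _
        haveI : Fintype ↥(P.map π) := Fintype.ofFinite _
        obtain ⟨z, hz, hz1⟩ := hZne
        have hlt := Fintype.card_lt_of_surjective_not_injective
          (fun u : ↥P => (⟨π u, Subgroup.mem_map_of_mem π u.2⟩ : ↥(P.map π)))
          (by
            rintro ⟨y, hy⟩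
            obtain ⟨u, hu, rfl⟩ := Subgroup.mem_map.mp hy
            exact ⟨⟨u, hu⟩, rfl⟩)
          (by
            intro hinj
            have e : (⟨π z, Subgroup.mem_map_of_mem π (hZP hz)⟩ : ↥(P.map π))
                = ⟨π 1, Subgroup.mem_map_of_mem π P.one_mem⟩ := by
              apply Subtype.ext
              show π z = π 1
              rw [map_one, hπ1]; exact hz
            have h4 := @hinj ⟨z, hZP hz⟩ ⟨1, P.one_mem⟩ e
            exact hz1 (congrArg Subtype.val h4))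
        rw [Nat.card_eq_fintype_card] at hcard ⊢
        omega
      have hq1 : ∀ u ∈ P.map π, ∃ a : ℕ, u ^ p ^ a = 1 := by
        intro ū hū
        obtain ⟨u, hu, rfl⟩ := Subgroup.mem_map.mp hū
        obtain ⟨a, ha⟩ := hPp u hu
        exact ⟨a, by rw [← map_pow, ha, map_one]⟩
      have hq2 : ∀ c ∈ R.map π, ∃ a : ℕ, c ^ r ^ a = 1 := by
        intro ū hū
        obtain ⟨u, hu, rfl⟩ := Subgroup.mem_map.mp hū
        obtain ⟨a, ha⟩ := hRr u hu
        exact ⟨a, by rw [← map_pow, ha, map_one]⟩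
      have hq3 : ∀ c ∈ R.map π, π h * c * (π h)⁻¹ ∈ R.map π := by
        intro c' hc'
        obtain ⟨c, hc, rfl⟩ := Subgroup.mem_map.mp hc'
        rw [← map_mul, ← map_inv, ← map_mul]
        exact Subgroup.mem_map_of_mem π (hR c hc)
      have hq4 : ∀ i, 0 < i → i < m + 1 → ∀ c ∈ R.map π,
          c * π h ^ i * c⁻¹ * (π h ^ i)⁻¹ = 1 → c = 1 := by
        intro i hi0 hi c' hc' e
        obtain ⟨c, hc, rfl⟩ := Subgroup.mem_map.mp hc'
        have e' : π (c * h ^ i * c⁻¹ * (h ^ i)⁻¹) = 1 := by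
          rw [map_mul, map_mul, map_mul, map_inv, map_inv, map_pow]; exact e
        rw [hπ1] at e'
        have hwR := tau_mem R h hR i c hc
        obtain ⟨a, ha⟩ := hPp _ (hZP e')
        obtain ⟨b, hb⟩ := hRr _ hwR
        have hw1 := eq_one_of_pr hp.out hr.out hpr _ a b ha hb
        rw [hfpf i hi0 hi c hc hw1, map_one]
      have hq5 : ∀ c ∈ R.map π, ∀ u ∈ P.map π, (c * π h * c⁻¹ * u) ^ (m + 1) = 1 := by
        intro c' hc' u' hu'
        obtain ⟨c, hc, rfl⟩ := Subgroup.mem_map.mp hc'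
        obtain ⟨u, hu, rfl⟩ := Subgroup.mem_map.mp hu'
        rw [← map_inv, ← map_mul, ← map_mul, ← map_mul, ← map_pow, hpow c hc u hu, map_one]
      have hquot := ih (X ⧸ Z) (P.map π) (R.map π)
        (Subgroup.Normal.map hPn π (QuotientGroup.mk'_surjective Z)) (π h) m hcardq
        hq1 hq2 hq3 hq4 hq5
      intro k hk x hx
      have hq := hquot (π k) (Subgroup.mem_map_of_mem π hk) (π x) (Subgroup.mem_map_of_mem π hx)
      have hz : x⁻¹ * (k * x * k⁻¹) ∈ Z := by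
        rw [← hπ1, map_mul, map_inv, map_mul, map_mul, map_inv, hq, inv_mul_cancel]
      obtain ⟨z, hzdef⟩ : ∃ z, z = x⁻¹ * (k * x * k⁻¹) := ⟨_, rfl⟩
      rw [← hzdef] at hz
      have hkx : k * x * k⁻¹ = x * z := by rw [hzdef]; group
      have hpowz : ∀ j : ℕ, k ^ j * x * (k ^ j)⁻¹ = x * z ^ j := by
        intro j
        induction j with
        | zero => simp
        | succ j ihj =>
          have hzj : z ^ j ∈ Z := Z.pow_mem hz j
          have e1 := hRZ k hk _ hzj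
          calc k ^ (j + 1) * x * (k ^ (j + 1))⁻¹
              = k * (k ^ j * x * (k ^ j)⁻¹) * k⁻¹ := by rw [pow_succ']; group
            _ = k * (x * z ^ j) * k⁻¹ := by rw [ihj]
            _ = (k * x * k⁻¹) * (k * z ^ j * k⁻¹) := by group
            _ = x * z * z ^ j := by rw [hkx, e1]
            _ = x * z ^ (j + 1) := by rw [pow_succ', mul_assoc]
      obtain ⟨b, hb⟩ := hRr k hk
      have h5 := hpowz (r ^ b)
      rw [hb] at h5
      have h6 : z ^ r ^ b = 1 := by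
        have h7 : x * 1 = x * z ^ r ^ b := by
          rw [mul_one]; simpa using h5
        exact (mul_left_cancel h7).symm
      obtain ⟨a, ha⟩ := hPp z (hZP hz)
      have hz1 := eq_one_of_pr hp.out hr.out hpr z a b ha h6
      rw [hkx, hz1, mul_one]

end Cfsg.Agent.Helper19.Maz
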