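import Mathlib

/-!
Piece [B] for S1011 (request 1162 of helper21): in a simple group of order 504, an involution
`t` inverting an element `x` of order 7 has `|C(t)| ≤ 12`.

Route: `Ω = Sylow 7 G` (36 points) with the conjugation action.
-/

set_option autoImplicit false

namespace Cfsg.Agent.Helper19.O504B

variable {G : Type*} [Group G] [Finite G]

theorem sylow7_card (h : Nat.card G = 504) (Q : Sylow 7 G) : Nat.card (Q : Subgroup G) = 7 := by
  haveI : Fact (Nat.Prime 7) := ⟨by norm_num⟩
  obtain ⟨k, hk⟩ := IsPGroup.iff_card.mp Q.isPGroup'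
  have hdvd : Nat.card (Q : Subgroup G) ∣ 504 := h ▸ Subgroup.card_subgroup_dvd_card _
  have hidx : ¬ 7 ∣ (Q : Subgroup G).index := Q.not_dvd_index
  have hmul := Subgroup.card_mul_index (Q : Subgroup G)
  rw [h] at hmul
  have hk2 : k < 2 := by
    by_contra hge
    push_neg at hge
    have h1 : 7 ^ 2 ∣ 7 ^ k := pow_dvd_pow 7 hge
    have h49 : (7 ^ 2 : ℕ) ∣ 504 := by
      rw [hk] at hdvd
      exact h1.trans hdvd
    norm_num at h49
  interval_cases k
  · exfalso
    apply hidx
    have hQ1 : Nat.card (Q : Subgroup G) = 1 := by simpa using hk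
    rw [hQ1, one_mul] at hmul
    rw [hmul]
    norm_num
  · simpa using hk

theorem zpowers_eq (h : Nat.card G = 504) (Q : Sylow 7 G) (y : G) (hy : y ∈ (Q : Subgroup G))
    (hy1 : y ≠ 1) : Subgroup.zpowers y = (Q : Subgroup G) := by
  have hle : Subgroup.zpowers y ≤ (Q : Subgroup G) := (Subgroup.zpowers_le).mpr hy
  apply Subgroup.eq_of_le_of_card_ge hle
  rw [sylow7_card h Q, Nat.card_zpowers]
  have hd : orderOf y ∣ 7 := by
    have := Subgroup.orderOf_dvd_natCard (Q : Subgroup G) hy
    rwa [sylow7_card h Q] at this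
  rcases (Nat.dvd_prime (by norm_num : Nat.Prime 7)).mp hd with h1 | h7
  · exact absurd (orderOf_eq_one_iff.mp h1) hy1
  · omega

theorem exists_sylow (h : Nat.card G = 504) (x : G) (hx : orderOf x = 7) :
    ∃ P : Sylow 7 G, (P : Subgroup G) = Subgroup.zpowers x := by
  haveI : Fact (Nat.Prime 7) := ⟨by norm_num⟩
  have hpg : IsPGroup 7 (Subgroup.zpowers x) :=
    IsPGroup.of_card (n := 1) (by rw [Nat.card_zpowers, hx, pow_one])
  obtain ⟨P, hP⟩ := hpg.exists_le_sylow
  refine ⟨P, (zpowers_eq h P x (hP (Subgroup.mem_zpowers x)) ?_).symm⟩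
  intro h1
  rw [h1, orderOf_one] at hx
  omega

/-- An element of order 7 (or any 7-element) fixing a Sylow 7-subgroup lies in it. -/
theorem mem_of_fix (Q : Sylow 7 G) (y : G) (hy7 : orderOf y = 7) (hfix : y • Q = Q) :
    y ∈ (Q : Subgroup G) := by
  haveI : Fact (Nat.Prime 7) := ⟨by norm_num⟩
  have hpg : IsPGroup 7 (Subgroup.zpowers y) :=
    IsPGroup.of_card (n := 1) (by rw [Nat.card_zpowers, hy7, pow_one])
  have hmem : Q ∈ MulAction.fixedPoints (Subgroup.zpowers y) (Sylow 7 G) := by
    rintro ⟨m, hm⟩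
    obtain ⟨k, rfl⟩ := Subgroup.mem_zpowers_iff.mp hm
    show (y ^ k) • Q = Q
    have hst : y ∈ MulAction.stabilizer G Q := hfix
    exact (MulAction.stabilizer G Q).zpow_mem hst k
  exact (hpg.sylow_mem_fixedPoints_iff.mp hmem) (Subgroup.mem_zpowers y)

theorem fixed_of_gen (h : Nat.card G = 504) (P Q : Sylow 7 G) (y : G)
    (hy : y ∈ (P : Subgroup G)) (hy1 : y ≠ 1) (hfix : y • Q = Q) : Q = P := by
  have hz : Subgroup.zpowers y = (P : Subgroup G) := zpowers_eq h P y hy hy1
  have hy7 : orderOf y = 7 := by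
    rw [← Nat.card_zpowers, hz, sylow7_card h P]
  have hyQ : y ∈ (Q : Subgroup G) := mem_of_fix Q y hy7 hfix
  have hz' : Subgroup.zpowers y = (Q : Subgroup G) := zpowers_eq h Q y hyQ hy1
  apply Sylow.ext
  rw [← hz', hz]

theorem card_sylow7 [IsSimpleGroup G] (h : Nat.card G = 504) (P : Sylow 7 G) (t : G)
    (ht : orderOf t = 2) (htP : t • P = P) : Nat.card (Sylow 7 G) = 36 := by
  haveI : Fact (Nat.Prime 7) := ⟨by norm_num⟩
  have hmod : Nat.card (Sylow 7 G) ≡ 1 [MOD 7] := card_sylow_modEq_one 7 G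
  have hidx : (P : Subgroup G).index = 72 := by
    have := Subgroup.card_mul_index (P : Subgroup G)
    rw [h, sylow7_card h P] at this
    omega
  have hdvd : Nat.card (Sylow 7 G) ∣ 72 := hidx ▸ P.card_dvd_index
  have key : ∀ n ≤ 72, n ∣ 72 → n % 7 = 1 → n = 1 ∨ n = 8 ∨ n = 36 := by decide
  have hN : Nat.card (Sylow 7 G) = (Subgroup.normalizer ((P : Subgroup G) : Set G)).index :=
    P.card_eq_index_normalizer
  have hmulN := Subgroup.card_mul_index (Subgroup.normalizer ((P : Subgroup G) : Set G))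
  rw [h, ← hN] at hmulN
  rcases key _ (Nat.le_of_dvd (by norm_num) hdvd) hdvd hmod with h1 | h8 | h36
  · exfalso
    rw [h1] at hN
    have htop : Subgroup.normalizer ((P : Subgroup G) : Set G) = ⊤ :=
      Subgroup.index_eq_one.mp hN.symm
    have hnorm : (P : Subgroup G).Normal := Subgroup.normalizer_eq_top_iff.mp htop
    rcases hnorm.eq_bot_or_eq_top with hb | hb
    · have := sylow7_card h P
      rw [hb, Subgroup.card_bot] at this
      omega
    · have := sylow7_card h P
      rw [hb, Subgroup.card_top, h] at this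
      omega
  · exfalso
    rw [h8] at hmulN
    have hcardN : Nat.card (Subgroup.normalizer ((P : Subgroup G) : Set G)) = 63 := by omega
    have htN : t ∈ Subgroup.normalizer ((P : Subgroup G) : Set G) :=
      Sylow.smul_eq_iff_mem_normalizer.mp htP
    have := Subgroup.orderOf_dvd_natCard _ htN
    rw [ht, hcardN] at this
    omega
  · exact h36

theorem cent_le [IsSimpleGroup G] (h : Nat.card G = 504) (x t : G) (hx : orderOf x = 7)
    (ht : orderOf t = 2) (htx : t * x * t⁻¹ = x⁻¹) :
    Nat.card ↥(Subgroup.centralizer ({t} : Set G)) ≤ 12 := by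
  classical
  haveI : Fact (Nat.Prime 7) := ⟨by norm_num⟩
  letI : Fintype G := Fintype.ofFinite G
  letI : Fintype (Sylow 7 G) := Fintype.ofFinite _
  obtain ⟨P, hP⟩ := exists_sylow h x hx
  have hxP : x ∈ (P : Subgroup G) := by rw [hP]; exact Subgroup.mem_zpowers x
  have ht2 : t * t = 1 := by
    have := pow_orderOf_eq_one t
    rwa [ht, pow_two] at this
  have htinv : t⁻¹ = t := inv_eq_of_mul_eq_one_right ht2
  have ht1 : t ≠ 1 := by
    intro h1
    rw [h1, orderOf_one] at ht
    omega
  -- conjugation of powers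
  have hconj : ∀ k : ℤ, t * x ^ k * t⁻¹ = x ^ (-k) := by
    intro k
    rw [← conj_zpow, htx, inv_zpow, zpow_neg]
  -- elements of P fix P
  have hPfix : ∀ y ∈ (P : Subgroup G), y • P = P := fun y hy =>
    Sylow.smul_eq_iff_mem_normalizer.mpr (Subgroup.le_normalizer hy)
  -- t fixes P
  have htP : t • P = P := by
    apply Sylow.smul_eq_iff_mem_normalizer.mpr
    show t ∈ Subgroup.normalizer ((P : Subgroup G) : Set G)
    rw [hP, Subgroup.mem_normalizer_iff]
    intro g
    constructor
    · intro hg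
      obtain ⟨k, rfl⟩ := Subgroup.mem_zpowers_iff.mp hg
      rw [hconj]
      exact Subgroup.zpow_mem _ (Subgroup.mem_zpowers x) _
    · intro hg
      obtain ⟨k, hk⟩ := Subgroup.mem_zpowers_iff.mp hg
      have hg' : g = t * x ^ k * t⁻¹ := by
        rw [hk, htinv]
        simp only [mul_assoc, ht2, mul_one]
        rw [← mul_assoc, ht2, one_mul]
      rw [hg', hconj]
      exact Subgroup.zpow_mem _ (Subgroup.mem_zpowers x) _
  have hn7 : Nat.card (Sylow 7 G) = 36 := card_sylow7 h P t ht htP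
  have hcardΩ : (Finset.univ : Finset (Sylow 7 G)).card = 36 := by
    rw [Finset.card_univ, ← Nat.card_eq_fintype_card, hn7]
  -- card of the normalizer
  have hcardN : Nat.card (Subgroup.normalizer ((P : Subgroup G) : Set G)) = 14 := by
    have hN : Nat.card (Sylow 7 G) = (Subgroup.normalizer ((P : Subgroup G) : Set G)).index :=
      P.card_eq_index_normalizer
    have hmulN := Subgroup.card_mul_index (Subgroup.normalizer ((P : Subgroup G) : Set G))
    rw [h, ← hN, hn7] at hmulN
    omega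
  -- fixed point sets
  have hFconj : ∀ c g : G,
      (Finset.univ.filter (fun Q : Sylow 7 G => (c * g * c⁻¹) • Q = Q)).card
        = (Finset.univ.filter (fun Q : Sylow 7 G => g • Q = Q)).card := by
    intro c g
    have himg : Finset.univ.filter (fun Q : Sylow 7 G => (c * g * c⁻¹) • Q = Q)
        = (Finset.univ.filter (fun Q : Sylow 7 G => g • Q = Q)).image (fun Q => c • Q) := by
      ext Q
      simp only [Finset.mem_filter, Finset.mem_univ, true_and, Finset.mem_image]
      constructor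
      · intro hQ
        refine ⟨c⁻¹ • Q, ?_, smul_inv_smul c Q⟩
        have h1 : c⁻¹ • ((c * g * c⁻¹) • Q) = c⁻¹ • Q := by rw [hQ]
        rw [mul_smul, mul_smul, inv_smul_smul] at h1
        exact h1
      · rintro ⟨Q', hQ', rfl⟩
        rw [mul_smul, mul_smul, inv_smul_smul, hQ']
    rw [himg, Finset.card_image_of_injective _ (MulAction.injective c)]
  -- the involutions u i
  have hu_prod : ∀ i j : ℕ, (x ^ i * t * (x ^ i)⁻¹) * (x ^ j * t * (x ^ j)⁻¹)
      = x ^ (2 * (i : ℤ) - 2 * (j : ℤ)) := by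
    intro i j
    have e1 : (x ^ i * t * (x ^ i)⁻¹) * (x ^ j * t * (x ^ j)⁻¹)
        = x ^ (i : ℤ) * (t * x ^ ((j : ℤ) - (i : ℤ)) * t) * x ^ (-(j : ℤ)) := by
      rw [← zpow_natCast x i, ← zpow_natCast x j]
      group
    rw [e1]
    have e2 : t * x ^ ((j : ℤ) - (i : ℤ)) * t = x ^ (-((j : ℤ) - (i : ℤ))) := by
      have := hconj ((j : ℤ) - (i : ℤ))
      rwa [htinv] at this
    rw [e2, ← zpow_add, ← zpow_add]
    congr 1
    ring
  have hu_ne : ∀ i j : ℕ, i < 7 → j < 7 → i ≠ j →
      (x ^ i * t * (x ^ i)⁻¹) * (x ^ j * t * (x ^ j)⁻¹) ≠ 1 := by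
    intro i j hi hj hij hone
    rw [hu_prod] at hone
    have hd := (orderOf_dvd_iff_zpow_eq_one).mpr hone
    rw [hx] at hd
    omega
  have hu_mem : ∀ i j : ℕ, (x ^ i * t * (x ^ i)⁻¹) * (x ^ j * t * (x ^ j)⁻¹) ∈ (P : Subgroup G) := by
    intro i j
    rw [hu_prod, hP]
    exact Subgroup.zpow_mem _ (Subgroup.mem_zpowers x) _
  have hu_fixP : ∀ i : ℕ, (x ^ i * t * (x ^ i)⁻¹) • P = P := by
    intro i
    have hxi : x ^ i ∈ (P : Subgroup G) := Subgroup.pow_mem _ hxP i
    rw [mul_smul, mul_smul, hPfix _ (Subgroup.inv_mem _ hxi), htP, hPfix _ hxi]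
  -- the disjoint family
  have hdisj : ∀ i ∈ (Finset.univ : Finset (Fin 7)), ∀ j ∈ (Finset.univ : Finset (Fin 7)), i ≠ j →
      Disjoint ((Finset.univ.filter (fun Q : Sylow 7 G =>
          (x ^ (i : ℕ) * t * (x ^ (i : ℕ))⁻¹) • Q = Q)).erase P)
        ((Finset.univ.filter (fun Q : Sylow 7 G =>
          (x ^ (j : ℕ) * t * (x ^ (j : ℕ))⁻¹) • Q = Q)).erase P) := by
    intro i _ j _ hij
    rw [Finset.disjoint_left]
    intro Q hQi hQj
    rw [Finset.mem_erase, Finset.mem_filter] at hQi hQj
    have hne : (i : ℕ) ≠ (j : ℕ) := fun hval => hij (Fin.ext hval)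
    have hfix : ((x ^ (i : ℕ) * t * (x ^ (i : ℕ))⁻¹) * (x ^ (j : ℕ) * t * (x ^ (j : ℕ))⁻¹)) • Q = Q := by
      rw [mul_smul, hQj.2.2, hQi.2.2]
    exact hQi.1 (fixed_of_gen h P Q _ (hu_mem i j) (hu_ne i j i.2 j.2 hne) hfix)
  have hcardS : ∀ i : Fin 7, ((Finset.univ.filter (fun Q : Sylow 7 G =>
      (x ^ (i : ℕ) * t * (x ^ (i : ℕ))⁻¹) • Q = Q)).erase P).card
      = (Finset.univ.filter (fun Q : Sylow 7 G => t • Q = Q)).card - 1 := by
    intro i
    rw [Finset.card_erase_of_mem, hFconj]
    rw [Finset.mem_filter]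
    exact ⟨Finset.mem_univ _, hu_fixP i⟩
  have hbi := Finset.card_biUnion hdisj
  have hsub : (Finset.univ : Finset (Fin 7)).biUnion (fun i =>
      (Finset.univ.filter (fun Q : Sylow 7 G =>
          (x ^ (i : ℕ) * t * (x ^ (i : ℕ))⁻¹) • Q = Q)).erase P)
      ⊆ (Finset.univ : Finset (Sylow 7 G)).erase P := by
    intro Q hQ
    rw [Finset.mem_biUnion] at hQ
    obtain ⟨i, -, hQi⟩ := hQ
    rw [Finset.mem_erase] at hQi ⊢
    exact ⟨hQi.1, Finset.mem_univ _⟩
  have hle35 := Finset.card_le_card hsub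
  rw [hbi, Finset.card_erase_of_mem (Finset.mem_univ P), hcardΩ] at hle35
  simp only [hcardS, Finset.sum_const, Finset.card_univ, Fintype.card_fin, smul_eq_mul] at hle35
  have hf6 : (Finset.univ.filter (fun Q : Sylow 7 G => t • Q = Q)).card ≤ 6 := by omega
  -- the group K = C(t) ∩ N(P)
  have hKcard : Nat.card ↥(Subgroup.centralizer ({t} : Set G) ⊓ MulAction.stabilizer G P) ≤ 2 := by
    have hst : MulAction.stabilizer G P = Subgroup.normalizer ((P : Subgroup G) : Set G) :=
      P.stabilizer_eq_normalizer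
    have hd : Nat.card ↥(Subgroup.centralizer ({t} : Set G) ⊓ MulAction.stabilizer G P) ∣ 14 := by
      rw [← hcardN, ← hst]
      exact Subgroup.card_dvd_of_le inf_le_right
    have h7 : ¬ 7 ∣ Nat.card ↥(Subgroup.centralizer ({t} : Set G) ⊓ MulAction.stabilizer G P) := by
      intro hdiv
      obtain ⟨k, hk⟩ := exists_prime_orderOf_dvd_card' 7 hdiv
      have hk7 : orderOf (k : G) = 7 := by rw [Subgroup.orderOf_coe]; exact hk
      have hkmem := k.2
      rw [Subgroup.mem_inf] at hkmem
      have hkfix : (k : G) • P = P := hkmem.2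
      have hkP : (k : G) ∈ (P : Subgroup G) := mem_of_fix P _ hk7 hkfix
      have hk1 : (k : G) ≠ 1 := by
        intro h1
        rw [h1, orderOf_one] at hk7
        omega
      have hz := zpowers_eq h P _ hkP hk1
      have hxk : x ∈ Subgroup.zpowers (k : G) := by rw [hz]; exact hxP
      obtain ⟨m, hm⟩ := Subgroup.mem_zpowers_iff.mp hxk
      have hkt : t * (k : G) = (k : G) * t := by
        have := (Subgroup.mem_centralizer_iff.mp hkmem.1) t (Set.mem_singleton t)
        exact this
      have hxt : t * x = x * t := by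
        rw [← hm]
        exact ((Commute.zpow_right (show Commute t (k : G) from hkt) m)).eq
      have hxx : x = x⁻¹ := by
        rw [← htx, hxt, mul_assoc, mul_inv_cancel, mul_one]
      have hx2 : x ^ 2 = 1 := by
        rw [pow_two]
        nth_rewrite 2 [hxx]
        exact mul_inv_cancel x
      have := orderOf_dvd_of_pow_eq_one hx2
      rw [hx] at this
      omega
    have key : ∀ n ≤ 14, n ∣ 14 → ¬ 7 ∣ n → n ≤ 2 := by decide
    exact key _ (Nat.le_of_dvd (by norm_num) hd) hd h7
  -- count C(t) through the map c ↦ c • P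
  have hCcard : Nat.card ↥(Subgroup.centralizer ({t} : Set G))
      = (Finset.univ.filter (fun c : G => c ∈ Subgroup.centralizer ({t} : Set G))).card := by
    rw [Nat.card_eq_fintype_card]
    exact Fintype.card_of_subtype _ (fun c => by simp)
  have hKfin : Nat.card ↥(Subgroup.centralizer ({t} : Set G) ⊓ MulAction.stabilizer G P)
      = (Finset.univ.filter (fun c : G =>
          c ∈ Subgroup.centralizer ({t} : Set G) ⊓ MulAction.stabilizer G P)).card := by
    rw [Nat.card_eq_fintype_card]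
    exact Fintype.card_of_subtype _ (fun c => by simp)
  have hfib : ∀ Q ∈ (Finset.univ.filter (fun c : G =>
        c ∈ Subgroup.centralizer ({t} : Set G))).image (fun c => c • P),
      ((Finset.univ.filter (fun c : G => c ∈ Subgroup.centralizer ({t} : Set G))).filter
        (fun c => c • P = Q)).card ≤ 2 := by
    intro Q hQ
    rw [Finset.mem_image] at hQ
    obtain ⟨c0, hc0, hc0Q⟩ := hQ
    rw [Finset.mem_filter] at hc0
    refine le_trans ?_ hKcard
    rw [hKfin]
    apply Finset.card_le_card_of_injOn (fun c => c0⁻¹ * c)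
    · intro c hc
      rw [Finset.mem_coe, Finset.mem_filter, Finset.mem_filter] at hc
      rw [Finset.mem_coe, Finset.mem_filter, Subgroup.mem_inf]
      refine ⟨Finset.mem_univ _, Subgroup.mul_mem _ (Subgroup.inv_mem _ hc0.2) hc.1.2, ?_⟩
      show (c0⁻¹ * c) • P = P
      rw [mul_smul, hc.2, ← hc0Q, inv_smul_smul]
    · intro a _ b _ hab
      exact mul_left_cancel hab
  have hmain := Finset.card_le_mul_card_image
    (Finset.univ.filter (fun c : G => c ∈ Subgroup.centralizer ({t} : Set G))) 2 hfib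
  have himg : ((Finset.univ.filter (fun c : G => c ∈ Subgroup.centralizer ({t} : Set G))).image
      (fun c => c • P)).card ≤ (Finset.univ.filter (fun Q : Sylow 7 G => t • Q = Q)).card := by
    apply Finset.card_le_card
    intro Q hQ
    rw [Finset.mem_image] at hQ
    obtain ⟨c, hc, rfl⟩ := hQ
    rw [Finset.mem_filter] at hc ⊢
    refine ⟨Finset.mem_univ _, ?_⟩
    have hct : t * c = c * t := (Subgroup.mem_centralizer_iff.mp hc.2) t (Set.mem_singleton t)
    rw [← mul_smul, hct, mul_smul, htP]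
  rw [hCcard]
  omega

end Cfsg.Agent.Helper19.O504B
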