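import Mathlib
import Cfsg.Agent.S0081
import Cfsg.Agent.Helper23.PSolv

/-!
Piece [b] for S4172 (request 1032 of helper26): if `O_{p'}(G) = 1` and the Frattini subgroup
of a Sylow `p`-subgroup `P` has trivial normal core, then no nontrivial normal subgroup `K`
satisfies `K ∩ P ≤ Φ(P)` (Tate's theorem).
-/

namespace Cfsg.Agent.Helper19.S4172b

theorem normal_not_le {G : Type*} [Group G] [Finite G] (p : ℕ) [Fact p.Prime] (P : Sylow p G)
    (hcore : Cfsg.pPrimeCore p G = ⊥)
    (hfrat : ((frattini ↥(P : Subgroup G)).map (P : Subgroup G).subtype).normalCore = ⊥)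
    (K : Subgroup G) (hK : K.Normal) (hK1 : K ≠ ⊥) :
    ¬ (K ⊓ (P : Subgroup G) ≤ (frattini ↥(P : Subgroup G)).map (P : Subgroup G).subtype) := by
  intro h
  haveI := hK
  have hp : p.Prime := Fact.out
  have hcop := Cfsg.Agent.S0081.tate_core P K h
  have hMn : ((Cfsg.pResidual p ↥K).map K.subtype).Normal :=
    Cfsg.Agent.Helper14.map_pResidual_normal p K
  have hMle : (Cfsg.pResidual p ↥K).map K.subtype ≤ Cfsg.pPrimeCore p G := by
    apply Cfsg.Agent.Helper23.le_pPrimeCore hMn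
    rw [Subgroup.card_map_of_injective K.subtype_injective]
    exact hcop
  rw [hcore] at hMle
  have hKp : IsPGroup p ↥K := by
    intro g
    obtain ⟨a, m, hm, hgm⟩ := Nat.exists_eq_pow_mul_and_not_dvd (orderOf_pos g).ne' p hp.ne_one
    refine ⟨a, ?_⟩
    have hdvd : orderOf (g ^ p ^ a) ∣ m := by
      apply orderOf_dvd_of_pow_eq_one
      rw [← pow_mul, ← hgm, pow_orderOf_eq_one]
    have hmp : Nat.Coprime m p := ((Nat.Prime.coprime_iff_not_dvd hp).mpr hm).symm
    have hmem : g ^ p ^ a ∈ Cfsg.pResidual p ↥K :=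
      Subgroup.subset_closure (Nat.Coprime.coprime_dvd_left hdvd hmp)
    have hmem2 : ((g ^ p ^ a : ↥K) : G) ∈ (Cfsg.pResidual p ↥K).map K.subtype :=
      ⟨_, hmem, rfl⟩
    have h1 := hMle hmem2
    rw [Subgroup.mem_bot] at h1
    exact Subtype.ext h1
  have hKP : K ≤ (P : Subgroup G) := Cfsg.Agent.Helper23.le_sylow_of_normal hK hKp P
  have hKPhi : K ≤ (frattini ↥(P : Subgroup G)).map (P : Subgroup G).subtype := by
    intro x hx
    exact h ⟨hx, hKP hx⟩
  have hle : K ≤ ((frattini ↥(P : Subgroup G)).map (P : Subgroup G).subtype).normalCore :=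
    Subgroup.normal_le_normalCore.mpr hKPhi
  rw [hfrat] at hle
  exact hK1 (le_bot_iff.mp hle)

end Cfsg.Agent.Helper19.S4172b
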