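import Mathlib

/-!
Piece [f] for S4172 (request 1032 of helper26): in a perfect finite group, a central element
lying in a Sylow `p`-subgroup `R` lies in the commutator subgroup of `R` (transfer argument).
-/

namespace Cfsg.Agent.Helper19.S4172f

theorem central_mem_commutator {E : Type*} [Group E] [Finite E] (p : ℕ) [Fact p.Prime]
    (hperf : ∀ x : E, x ∈ commutator E) (R : Sylow p E) (z : E) (hz : z ∈ Subgroup.center E)
    (hzR : z ∈ (R : Subgroup E)) : z ∈ ⁅(R : Subgroup E), (R : Subgroup E)⁆ := by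
  classical
  have key : ∀ (k : ℕ) (g₀ : E), g₀⁻¹ * z ^ k * g₀ ∈ (R : Subgroup E) →
      g₀⁻¹ * z ^ k * g₀ = z ^ k := by
    intro k g₀ _
    have hzk : z ^ k ∈ Subgroup.center E := Subgroup.pow_mem _ hz k
    rw [Subgroup.mem_center_iff] at hzk
    rw [mul_assoc, ← hzk g₀, inv_mul_cancel_left]
  have hT := MonoidHom.transfer_eq_pow (H := (R : Subgroup E))
    (Abelianization.of : ↥(R : Subgroup E) →* Abelianization ↥(R : Subgroup E)) z key
  have hT1 : MonoidHom.transfer
      (Abelianization.of : ↥(R : Subgroup E) →* Abelianization ↥(R : Subgroup E)) z = 1 := by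
    have hker : commutator E ≤ (MonoidHom.transfer
        (Abelianization.of : ↥(R : Subgroup E) →* Abelianization ↥(R : Subgroup E))).ker :=
      Abelianization.commutator_subset_ker _
    exact MonoidHom.mem_ker.mp (hker (hperf z))
  rw [hT1] at hT
  have hmem : (⟨z ^ (R : Subgroup E).index, MonoidHom.transfer_eq_pow_aux z key⟩ :
      ↥(R : Subgroup E)) ∈ commutator ↥(R : Subgroup E) := by
    rw [← Abelianization.ker_of, MonoidHom.mem_ker]
    exact hT.symm
  have hmem2 : z ^ (R : Subgroup E).index ∈ ⁅(R : Subgroup E), (R : Subgroup E)⁆ := by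
    rw [← Subgroup.map_subtype_commutator]
    exact ⟨_, hmem, rfl⟩
  have hcop : ((R : Subgroup E).index).Coprime (orderOf z) := by
    obtain ⟨k, hk⟩ := R.2 ⟨z, hzR⟩
    have hz_pk : z ^ p ^ k = 1 := by
      have := congrArg Subtype.val hk
      simpa using this
    have hdvd : orderOf z ∣ p ^ k := orderOf_dvd_of_pow_eq_one hz_pk
    have hnd : ¬ p ∣ (R : Subgroup E).index := R.not_dvd_index
    have h1 : Nat.Coprime p (R : Subgroup E).index :=
      (Nat.Prime.coprime_iff_not_dvd (Fact.out)).mpr hnd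
    exact (Nat.Coprime.coprime_dvd_left hdvd (Nat.Coprime.pow_left k h1)).symm
  obtain ⟨m, hm⟩ := exists_pow_eq_self_of_coprime hcop
  rw [← hm]
  exact Subgroup.pow_mem _ hmem2 m

end Cfsg.Agent.Helper19.S4172f
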