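import Mathlib

/-!
Helper library (helper19): recognising `SL₂(p)` from two "transvection" elements acting on a
rank-two elementary abelian `p`-subgroup with explicit coordinates.
-/

set_option autoImplicit false

namespace Cfsg.Agent.Helper19.SL2Rec

open Matrix

variable {G : Type*} [Group G] {p : ℕ} [Fact p.Prime]

/-- power with exponent in `ZMod p` -/
def zp (c : G) (k : ZMod p) : G := c ^ k.val

theorem zp_natCast {c : G} (hc : c ^ p = 1) (n : ℕ) : zp c (n : ZMod p) = c ^ n := by
  unfold zp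
  rw [ZMod.val_natCast]
  exact (pow_eq_pow_mod n hc).symm

theorem zp_zero (c : G) : zp c (0 : ZMod p) = 1 := by
  unfold zp
  rw [ZMod.val_zero, pow_zero]

theorem zp_one {c : G} (hc : c ^ p = 1) : zp c (1 : ZMod p) = c := by
  have := zp_natCast hc 1
  rwa [Nat.cast_one, pow_one] at this

theorem zp_add {c : G} (hc : c ^ p = 1) (k l : ZMod p) : zp c (k + l) = zp c k * zp c l := by
  haveI : NeZero p := ⟨(Fact.out : p.Prime).ne_zero⟩
  conv_lhs => rw [← ZMod.natCast_zmod_val k, ← ZMod.natCast_zmod_val l, ← Nat.cast_add]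
  rw [zp_natCast hc, pow_add]
  rfl

theorem zp_pow {c : G} (hc : c ^ p = 1) (k : ZMod p) : (zp c k) ^ p = 1 := by
  unfold zp
  rw [← pow_mul, mul_comm, pow_mul, hc, one_pow]

theorem zp_mul {c : G} (hc : c ^ p = 1) (k l : ZMod p) : zp c (k * l) = zp (zp c k) l := by
  haveI : NeZero p := ⟨(Fact.out : p.Prime).ne_zero⟩
  conv_lhs => rw [← ZMod.natCast_zmod_val k, ← ZMod.natCast_zmod_val l, ← Nat.cast_mul]
  rw [zp_natCast hc, pow_mul]
  rfl

theorem zp_conj (g c : G) (k : ZMod p) : g * zp c k * g⁻¹ = zp (g * c * g⁻¹) k := by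
  unfold zp
  rw [conj_pow]

theorem zp_comm {c d : G} (h : c * d = d * c) (k l : ZMod p) :
    zp c k * zp d l = zp d l * zp c k :=
  (Commute.pow_pow (h : Commute c d) _ _).eq

theorem zp_mul_distrib {c d : G} (h : c * d = d * c) (k : ZMod p) :
    zp (c * d) k = zp c k * zp d k := by
  unfold zp
  exact Commute.mul_pow (h : Commute c d) _

theorem zp_mem {c : G} {K : Subgroup G} (hc : c ∈ K) (k : ZMod p) : zp c k ∈ K :=
  pow_mem hc _

/-- a "frame": two commuting independent elements of order dividing `p` -/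
structure Frame (p : ℕ) [Fact p.Prime] (c c' : G) : Prop where
  comm : c * c' = c' * c
  pow : c ^ p = 1
  pow' : c' ^ p = 1
  inj : ∀ m n : ZMod p, zp c m * zp c' n = 1 → m = 0 ∧ n = 0

/-- the element with given coordinates -/
def vec (c c' : G) (v : Fin 2 → ZMod p) : G := zp c (v 0) * zp c' (v 1)

section frame

variable {c c' : G}

theorem vec_add (F : Frame p c c') (v w : Fin 2 → ZMod p) :
    vec c c' (v + w) = vec c c' v * vec c c' w := by
  unfold vec
  rw [Pi.add_apply, Pi.add_apply, zp_add F.pow, zp_add F.pow']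
  have h := zp_comm F.comm (w 0) (v 1)
  calc zp c (v 0) * zp c (w 0) * (zp c' (v 1) * zp c' (w 1))
      = zp c (v 0) * (zp c (w 0) * zp c' (v 1)) * zp c' (w 1) := by group
    _ = zp c (v 0) * (zp c' (v 1) * zp c (w 0)) * zp c' (w 1) := by rw [h]
    _ = _ := by group

theorem vec_zero : vec c c' (0 : Fin 2 → ZMod p) = 1 := by
  unfold vec
  simp [zp_zero]

theorem vec_smul (F : Frame p c c') (k : ZMod p) (v : Fin 2 → ZMod p) :
    vec c c' (k • v) = zp (vec c c' v) k := by
  unfold vec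
  rw [Pi.smul_apply, Pi.smul_apply, smul_eq_mul, smul_eq_mul, mul_comm k, mul_comm k,
    zp_mul F.pow, zp_mul F.pow', zp_mul_distrib (zp_comm F.comm _ _)]

theorem vec_inj (F : Frame p c c') {v w : Fin 2 → ZMod p} (h : vec c c' v = vec c c' w) :
    v = w := by
  have h1 : vec c c' (v - w) = 1 := by
    have := vec_add F (v - w) w
    rw [sub_add_cancel, h] at this
    exact mul_eq_right.1 this.symm
  obtain ⟨h0, h1'⟩ := F.inj _ _ h1
  funext i
  fin_cases i
  · exact sub_eq_zero.1 h0
  · exact sub_eq_zero.1 h1'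

theorem vec_e0 (F : Frame p c c') : vec c c' (fun i => if i = 0 then (1 : ZMod p) else 0) = c := by
  unfold vec
  simp [zp_zero, zp_one F.pow]

theorem vec_e1 (F : Frame p c c') : vec c c' (fun i => if i = 1 then (1 : ZMod p) else 0) = c' := by
  unfold vec
  simp [zp_zero, zp_one F.pow']

theorem vec_mem {K : Subgroup G} (hc : c ∈ K) (hc' : c' ∈ K) (v : Fin 2 → ZMod p) :
    vec c c' v ∈ K :=
  mul_mem (zp_mem hc _) (zp_mem hc' _)

/-- `g` acts on the frame by the matrix `M` -/
def ActsAs (c c' g : G) (M : Matrix (Fin 2) (Fin 2) (ZMod p)) : Prop :=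
  ∀ v : Fin 2 → ZMod p, g * vec c c' v * g⁻¹ = vec c c' (M *ᵥ v)

theorem actsAs_of_basis (F : Frame p c c') {g : G} {M : Matrix (Fin 2) (Fin 2) (ZMod p)}
    (h0 : g * c * g⁻¹ = vec c c' (fun i => M i 0))
    (h1 : g * c' * g⁻¹ = vec c c' (fun i => M i 1)) : ActsAs c c' g M := by
  intro v
  have e : M *ᵥ v = v 0 • (fun i => M i 0) + v 1 • (fun i => M i 1) := by
    funext i
    simp [Matrix.mulVec, dotProduct, Fin.sum_univ_two, mul_comm]
  rw [e, vec_add F, vec_smul F, vec_smul F, ← h0, ← h1, ← zp_conj, ← zp_conj]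
  unfold vec
  group

theorem ActsAs.one : ActsAs c c' (1 : G) (1 : Matrix (Fin 2) (Fin 2) (ZMod p)) := by
  intro v
  simp

theorem ActsAs.mul {g h : G} {M N : Matrix (Fin 2) (Fin 2) (ZMod p)} (hg : ActsAs c c' g M)
    (hh : ActsAs c c' h N) : ActsAs c c' (g * h) (M * N) := by
  intro v
  rw [← Matrix.mulVec_mulVec, ← hg, ← hh]
  group

theorem ActsAs.inv {g : G} {M N : Matrix (Fin 2) (Fin 2) (ZMod p)} (hg : ActsAs c c' g M)
    (hMN : M * N = 1) : ActsAs c c' g⁻¹ N := by
  intro v
  have := hg (N *ᵥ v)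
  rw [Matrix.mulVec_mulVec, hMN, Matrix.one_mulVec] at this
  rw [← this]
  group

theorem ActsAs.unique (F : Frame p c c') {g : G} {M N : Matrix (Fin 2) (Fin 2) (ZMod p)}
    (hM : ActsAs c c' g M) (hN : ActsAs c c' g N) : M = N := by
  have h : ∀ v, M *ᵥ v = N *ᵥ v := fun v => vec_inj F ((hM v).symm.trans (hN v))
  apply Matrix.toLin'.injective
  apply LinearMap.ext
  intro v
  rw [Matrix.toLin'_apply, Matrix.toLin'_apply, h v]

theorem ActsAs.pow {g : G} {M : Matrix (Fin 2) (Fin 2) (ZMod p)} (hg : ActsAs c c' g M)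
    (n : ℕ) : ActsAs c c' (g ^ n) (M ^ n) := by
  induction n with
  | zero =>
    rw [pow_zero, pow_zero]
    exact ActsAs.one
  | succ n ih =>
    rw [pow_succ, pow_succ]
    exact ih.mul hg

theorem ActsAs.comm0 (F : Frame p c c') {g : G}
    (hg : ActsAs c c' g (1 : Matrix (Fin 2) (Fin 2) (ZMod p))) : g * c = c * g := by
  have := hg (fun i => if i = 0 then (1 : ZMod p) else 0)
  rw [Matrix.one_mulVec, vec_e0 F] at this
  calc g * c = g * c * g⁻¹ * g := by group
    _ = c * g := by rw [this]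

theorem ActsAs.comm1 (F : Frame p c c') {g : G}
    (hg : ActsAs c c' g (1 : Matrix (Fin 2) (Fin 2) (ZMod p))) : g * c' = c' * g := by
  have := hg (fun i => if i = 1 then (1 : ZMod p) else 0)
  rw [Matrix.one_mulVec, vec_e1 F] at this
  calc g * c' = g * c' * g⁻¹ * g := by group
    _ = c' * g := by rw [this]

theorem actsAs_one_of_comm (F : Frame p c c') {g : G} (h0 : g * c = c * g)
    (h1 : g * c' = c' * g) : ActsAs c c' g (1 : Matrix (Fin 2) (Fin 2) (ZMod p)) := by
  apply actsAs_of_basis F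
  · have e : (fun i => (1 : Matrix (Fin 2) (Fin 2) (ZMod p)) i 0) =
        (fun i => if i = 0 then (1 : ZMod p) else 0) := by
      funext i
      fin_cases i <;> simp [Matrix.one_apply]
    rw [e, vec_e0 F, h0]
    group
  · have e : (fun i => (1 : Matrix (Fin 2) (Fin 2) (ZMod p)) i 1) =
        (fun i => if i = 1 then (1 : ZMod p) else 0) := by
      funext i
      fin_cases i <;> simp [Matrix.one_apply]
    rw [e, vec_e1 F, h1]
    group

end frame

/-- upper unitriangular -/
def U (s : ZMod p) : Matrix (Fin 2) (Fin 2) (ZMod p) := !![1, s; 0, 1]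

/-- lower unitriangular -/
def L (s : ZMod p) : Matrix (Fin 2) (Fin 2) (ZMod p) := !![1, 0; s, 1]

theorem U_mul (s t : ZMod p) : U s * U t = U (s + t) := by
  unfold U
  ext k l
  fin_cases k <;> fin_cases l <;> simp [Matrix.mul_apply, Fin.sum_univ_two, add_comm]

theorem L_mul (s t : ZMod p) : L s * L t = L (s + t) := by
  unfold L
  ext k l
  fin_cases k <;> fin_cases l <;> simp [Matrix.mul_apply, Fin.sum_univ_two, add_comm]

theorem U_zero : U (0 : ZMod p) = 1 := by
  unfold U
  ext k l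
  fin_cases k <;> fin_cases l <;> simp

theorem L_zero : L (0 : ZMod p) = 1 := by
  unfold L
  ext k l
  fin_cases k <;> fin_cases l <;> simp

theorem U_pow (s : ZMod p) (n : ℕ) : U s ^ n = U ((n : ZMod p) * s) := by
  induction n with
  | zero => rw [pow_zero, Nat.cast_zero, zero_mul, U_zero]
  | succ n ih => rw [pow_succ, ih, U_mul, Nat.cast_succ, add_mul, one_mul]

theorem L_pow (s : ZMod p) (n : ℕ) : L s ^ n = L ((n : ZMod p) * s) := by
  induction n with
  | zero => rw [pow_zero, Nat.cast_zero, zero_mul, L_zero]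
  | succ n ih => rw [pow_succ, ih, L_mul, Nat.cast_succ, add_mul, one_mul]

theorem U_det (s : ZMod p) : (U s).det = 1 := by
  simp [U, Matrix.det_fin_two]

theorem L_det (s : ZMod p) : (L s).det = 1 := by
  simp [L, Matrix.det_fin_two]

section recog

variable {c c' : G}

/-- The recognition theorem: two elements acting as a nontrivial upper resp. lower transvection
generate a copy of `SL₂(p)`, provided the generated group acts faithfully on the frame. -/
theorem recognition (F : Frame p c c') {a a' : G} {i j : ZMod p} (hi : i ≠ 0) (hj : j ≠ 0)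
    (ha : ActsAs c c' a (U i)) (ha' : ActsAs c c' a' (L j))
    (E : Subgroup G) (hE : E = Subgroup.closure {a, a'})
    (hfaith : ∀ g ∈ E, ActsAs c c' g (1 : Matrix (Fin 2) (Fin 2) (ZMod p)) → g = 1) :
    ∃ ρ : E ≃* Matrix.SpecialLinearGroup (Fin 2) (ZMod p),
      ∀ g : E, ActsAs c c' (g : G)
        ((ρ g : Matrix.SpecialLinearGroup (Fin 2) (ZMod p)) : Matrix (Fin 2) (Fin 2) (ZMod p)) := by
  have : NeZero p := ⟨(Fact.out : p.Prime).ne_zero⟩
  have haE : a ∈ E := hE ▸ Subgroup.subset_closure (by simp)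
  have ha'E : a' ∈ E := hE ▸ Subgroup.subset_closure (by simp)
  have hex : ∀ g ∈ E, ∃ M : Matrix.SpecialLinearGroup (Fin 2) (ZMod p),
      ActsAs c c' g (M : Matrix (Fin 2) (Fin 2) (ZMod p)) := by
    intro g hg
    rw [hE] at hg
    induction hg using Subgroup.closure_induction with
    | mem y hy =>
      rcases hy with rfl | rfl
      · exact ⟨⟨U i, U_det i⟩, ha⟩
      · exact ⟨⟨L j, L_det j⟩, ha'⟩
    | one => exact ⟨1, by rw [Matrix.SpecialLinearGroup.coe_one]; exact ActsAs.one⟩
    | mul y z _ _ ihy ihz =>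
      obtain ⟨M, hM⟩ := ihy
      obtain ⟨N, hN⟩ := ihz
      exact ⟨M * N, by rw [Matrix.SpecialLinearGroup.coe_mul]; exact hM.mul hN⟩
    | inv y _ ih =>
      obtain ⟨M, hM⟩ := ih
      refine ⟨M⁻¹, hM.inv ?_⟩
      rw [← Matrix.SpecialLinearGroup.coe_mul, mul_inv_cancel, Matrix.SpecialLinearGroup.coe_one]
  choose! f hf using hex
  have huniq : ∀ g ∈ E, ∀ M : Matrix.SpecialLinearGroup (Fin 2) (ZMod p),
      ActsAs c c' g (M : Matrix (Fin 2) (Fin 2) (ZMod p)) → f g = M :=
    fun g hg M hM => Subtype.ext (ActsAs.unique F (hf g hg) hM)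
  let ρ : E →* Matrix.SpecialLinearGroup (Fin 2) (ZMod p) :=
    { toFun := fun g => f g
      map_one' := huniq 1 (one_mem _) 1 (by rw [Matrix.SpecialLinearGroup.coe_one]; exact ActsAs.one)
      map_mul' := fun g h => huniq _ (mul_mem g.2 h.2) _ (by
        rw [Matrix.SpecialLinearGroup.coe_mul]
        exact (hf g g.2).mul (hf h h.2)) }
  have hinj : Function.Injective ρ := by
    rw [injective_iff_map_eq_one]
    intro g hg
    have h1 := hf g g.2
    have h2 : f g = 1 := hg
    rw [h2, Matrix.SpecialLinearGroup.coe_one] at h1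
    exact Subtype.ext (hfaith g g.2 h1)
  have hU : ∀ s : ZMod p, ∃ g ∈ E, ActsAs c c' g (U s) := by
    intro s
    refine ⟨a ^ (s / i).val, pow_mem haE _, ?_⟩
    have := ha.pow (s / i).val
    rw [U_pow, ZMod.natCast_zmod_val, div_mul_cancel₀ s hi] at this
    exact this
  have hL : ∀ s : ZMod p, ∃ g ∈ E, ActsAs c c' g (L s) := by
    intro s
    refine ⟨a' ^ (s / j).val, pow_mem ha'E _, ?_⟩
    have := ha'.pow (s / j).val
    rw [L_pow, ZMod.natCast_zmod_val, div_mul_cancel₀ s hj] at this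
    exact this
  have key : ∀ N : Matrix (Fin 2) (Fin 2) (ZMod p), N.det = 1 → N 1 0 ≠ 0 →
      ∃ g ∈ E, ActsAs c c' g N := by
    intro N hdet hN
    obtain ⟨g1, hg1, h1⟩ := hU ((N 0 0 - 1) / N 1 0)
    obtain ⟨g2, hg2, h2⟩ := hL (N 1 0)
    obtain ⟨g3, hg3, h3⟩ := hU ((N 1 1 - 1) / N 1 0)
    refine ⟨g1 * g2 * g3, mul_mem (mul_mem hg1 hg2) hg3, ?_⟩
    have h := (h1.mul h2).mul h3
    have e : N = U ((N 0 0 - 1) / N 1 0) * L (N 1 0) * U ((N 1 1 - 1) / N 1 0) := by
      rw [Matrix.det_fin_two] at hdet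
      ext k l
      fin_cases k <;> fin_cases l
      · simp [U, L, Matrix.mul_apply, Fin.sum_univ_two]
        field_simp
        ring
      · simp [U, L, Matrix.mul_apply, Fin.sum_univ_two]
        field_simp
        linear_combination (-1 : ZMod p) * hdet
      · simp [U, L, Matrix.mul_apply, Fin.sum_univ_two]
      · simp [U, L, Matrix.mul_apply, Fin.sum_univ_two]
        field_simp
        ring
    rw [e]
    exact h
  have hsurj : Function.Surjective ρ := by
    intro M
    suffices h : ∃ g ∈ E, ActsAs c c' g (M : Matrix (Fin 2) (Fin 2) (ZMod p)) by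
      obtain ⟨g, hg, hgM⟩ := h
      exact ⟨⟨g, hg⟩, huniq g hg M hgM⟩
    by_cases hM : (M : Matrix (Fin 2) (Fin 2) (ZMod p)) 1 0 = 0
    · have hdet := M.2
      rw [Matrix.det_fin_two, hM, mul_zero, sub_zero] at hdet
      have hM00 : (M : Matrix (Fin 2) (Fin 2) (ZMod p)) 0 0 ≠ 0 := by
        intro h
        rw [h, zero_mul] at hdet
        exact zero_ne_one hdet
      obtain ⟨g0, hg0, h0⟩ := hL (-1)
      obtain ⟨g, hg, hgN⟩ := key (L 1 * (M : Matrix (Fin 2) (Fin 2) (ZMod p)))
        (by rw [Matrix.det_mul, L_det, one_mul]; exact M.2)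
        (by simpa [L, Matrix.mul_apply, Fin.sum_univ_two, hM] using hM00)
      refine ⟨g0 * g, mul_mem hg0 hg, ?_⟩
      have h := h0.mul hgN
      rw [← Matrix.mul_assoc, L_mul, neg_add_cancel, L_zero, Matrix.one_mul] at h
      exact h
    · exact key _ M.2 hM
  exact ⟨MulEquiv.ofBijective ρ ⟨hinj, hsurj⟩, fun g => hf g g.2⟩

end recog

end Cfsg.Agent.Helper19.SL2Rec
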